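import Cfsg.Agent.Lib.As8.MZ

/-! Facts about `3¹⁺⁴ : (GL₂(3) × 2)` (helper7). -/

set_option autoImplicit false
set_option maxRecDepth 1000000
set_option maxHeartbeats 0

namespace Cfsg.Lib.As8

open Cfsg.Lib.Calc Cfsg.Lib.Grp Cfsg.Lib.T2 Cfsg.Lib.T3

/-- a formula -/
def nz_q1_f : Fm := .all 2 40 [] (.imp (.mem 5 (.mul (.mul (.mul (.l 5) (.l 40)) (.inv (.l 5))) (.l 40))) (.mem 8 (.l 40)))

theorem nz_q1_ev : nz.eval nz_q1_f = true := by decide +kernel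

theorem nz_q1 {G : Type*} [Group G] {γ : ℕ → G} {k : ℕ} {N : List W} (g : Gf nz γ k N)
    (e : tyB nz k N nz_q1_f = true := by decide +kernel) :
    ∀ q ∈ genW γ (nz.ws 2), γ 5 * q * (γ 5)⁻¹ * q ∈ genW γ (nz.ws 5) → q ∈ genW γ (nz.ws 8) :=
  g.transfer e nz_q1_ev

/-- a formula -/
def nz_q2_f : Fm := .all 2 40 [(.l 5, .l 5)] (.mem 9 (.l 40))

theorem nz_q2_ev : nz.eval nz_q2_f = true := by decide +kernel

theorem nz_q2 {G : Type*} [Group G] {γ : ℕ → G} {k : ℕ} {N : List W} (g : Gf nz γ k N)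
    (e : tyB nz k N nz_q2_f = true := by decide +kernel) :
    ∀ q ∈ genW γ (nz.ws 2), q * γ 5 = γ 5 * q → q ∈ genW γ (nz.ws 9) :=
  g.transfer e nz_q2_ev

/-- a formula -/
def nz_c1_f : Fm := .all 2 40 [(.mul (.l 1) (.inv (.l 2)), .mul (.l 1) (.inv (.l 2))), (.l 4, .l 4)] (.mem 9 (.l 40))

theorem nz_c1_ev : nz.eval nz_c1_f = true := by decide +kernel

theorem nz_c1 {G : Type*} [Group G] {γ : ℕ → G} {k : ℕ} {N : List W} (g : Gf nz γ k N)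
    (e : tyB nz k N nz_c1_f = true := by decide +kernel) :
    ∀ q ∈ genW γ (nz.ws 2), q * (γ 1 * (γ 2)⁻¹) = γ 1 * (γ 2)⁻¹ * q → q * γ 4 = γ 4 * q → q ∈ genW γ (nz.ws 9) :=
  g.transfer e nz_c1_ev

/-- a formula -/
def nz_adj_f : Fm := .all 9 40 [] (.imp (.mem 5 (.mul (.l 40) (.l 11))) (.all 9 41 [] (.imp (.mem 5 (.mul (.l 41) (.l 12))) (.ex 9 42 [(.l 40, .inv (.l 11)), (.l 41, .inv (.l 12))] (.tt)))))

theorem nz_adj_ev : nz.eval nz_adj_f = true := by decide +kernel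

theorem nz_adj {G : Type*} [Group G] {γ : ℕ → G} {k : ℕ} {N : List W} (g : Gf nz γ k N)
    (e : tyB nz k N nz_adj_f = true := by decide +kernel) :
    ∀ e ∈ genW γ (nz.ws 9), e * γ 11 ∈ genW γ (nz.ws 5) → ∀ f ∈ genW γ (nz.ws 9), f * γ 12 ∈ genW γ (nz.ws 5) → ∃ y ∈ genW γ (nz.ws 9), y * e = (γ 11)⁻¹ * y ∧ y * f = (γ 12)⁻¹ * y ∧ True :=
  g.transfer e nz_adj_ev

end Cfsg.Lib.As8
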