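import Cfsg.Agent.Lib.As8.MJ

/-! More facts about `3⁴ : W(F₄)` (helper7). -/

set_option autoImplicit false
set_option maxRecDepth 1000000
set_option maxHeartbeats 0

namespace Cfsg.Lib.As8

open Cfsg.Lib.Calc Cfsg.Lib.Grp Cfsg.Lib.T2 Cfsg.Lib.T3

/-- a formula -/
def nj_cK17_f : Fm := .all 17 40 [(.l 1, .l 1), (.l 2, .l 2), (.l 3, .l 3), (.l 11, .l 11)] (.mem 1 (.l 40))

theorem nj_cK17_ev : nj.eval nj_cK17_f = true := by decide +kernel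

theorem nj_cK17 {G : Type*} [Group G] {γ : ℕ → G} {k : ℕ} {N : List W} (g : Gf nj γ k N)
    (e : tyB nj k N nj_cK17_f = true := by decide +kernel) :
    ∀ g ∈ genW γ (nj.ws 17), g * γ 1 = γ 1 * g → g * γ 2 = γ 2 * g → g * γ 3 = γ 3 * g → g * γ 11 = γ 11 * g → g ∈ genW γ (nj.ws 1) :=
  g.transfer e nj_cK17_ev

/-- a formula -/
def nj_cK18_f : Fm := .all 18 40 [(.l 1, .l 1), (.l 2, .l 2), (.l 3, .l 3), (.l 11, .l 11)] (.mem 1 (.l 40))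

theorem nj_cK18_ev : nj.eval nj_cK18_f = true := by decide +kernel

theorem nj_cK18 {G : Type*} [Group G] {γ : ℕ → G} {k : ℕ} {N : List W} (g : Gf nj γ k N)
    (e : tyB nj k N nj_cK18_f = true := by decide +kernel) :
    ∀ g ∈ genW γ (nj.ws 18), g * γ 1 = γ 1 * g → g * γ 2 = γ 2 * g → g * γ 3 = γ 3 * g → g * γ 11 = γ 11 * g → g ∈ genW γ (nj.ws 1) :=
  g.transfer e nj_cK18_ev

theorem nj_cK {G : Type*} [Group G] {γ : ℕ → G} {k : ℕ} (hk : k = 17 ∨ k = 18) (g : Gf nj γ k []) :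
    ∀ g ∈ genW γ (nj.ws k), g * γ 1 = γ 1 * g → g * γ 2 = γ 2 * g → g * γ 3 = γ 3 * g → g * γ 11 = γ 11 * g → g ∈ genW γ (nj.ws 1) := by
  rcases hk with rfl | rfl
  exacts [nj_cK17 g, nj_cK18 g]

/-- a formula -/
def nj_zn17_f : Fm := .and (.all 17 40 [(.mul (.mul (.l 1) (.l 2)) (.l 3), .mul (.l 11) (.mul (.mul (.l 1) (.l 2)) (.l 3)))] (.not (.tt))) (.all 17 40 [(.mul (.mul (.l 1) (.l 2)) (.l 3), .mul (.inv (.l 11)) (.mul (.mul (.l 1) (.l 2)) (.l 3)))] (.not (.tt)))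

theorem nj_zn17_ev : nj.eval nj_zn17_f = true := by decide +kernel

theorem nj_zn17 {G : Type*} [Group G] {γ : ℕ → G} {k : ℕ} {N : List W} (g : Gf nj γ k N)
    (e : tyB nj k N nj_zn17_f = true := by decide +kernel) :
    (∀ g ∈ genW γ (nj.ws 17), g * (γ 1 * γ 2 * γ 3) = γ 11 * (γ 1 * γ 2 * γ 3) * g → ¬ True) ∧ (∀ g ∈ genW γ (nj.ws 17), g * (γ 1 * γ 2 * γ 3) = (γ 11)⁻¹ * (γ 1 * γ 2 * γ 3) * g → ¬ True) :=
  g.transfer e nj_zn17_ev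

/-- a formula -/
def nj_zn18_f : Fm := .and (.all 18 40 [(.mul (.mul (.l 1) (.l 2)) (.l 3), .mul (.l 11) (.mul (.mul (.l 1) (.l 2)) (.l 3)))] (.not (.tt))) (.all 18 40 [(.mul (.mul (.l 1) (.l 2)) (.l 3), .mul (.inv (.l 11)) (.mul (.mul (.l 1) (.l 2)) (.l 3)))] (.not (.tt)))

theorem nj_zn18_ev : nj.eval nj_zn18_f = true := by decide +kernel

theorem nj_zn18 {G : Type*} [Group G] {γ : ℕ → G} {k : ℕ} {N : List W} (g : Gf nj γ k N)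
    (e : tyB nj k N nj_zn18_f = true := by decide +kernel) :
    (∀ g ∈ genW γ (nj.ws 18), g * (γ 1 * γ 2 * γ 3) = γ 11 * (γ 1 * γ 2 * γ 3) * g → ¬ True) ∧ (∀ g ∈ genW γ (nj.ws 18), g * (γ 1 * γ 2 * γ 3) = (γ 11)⁻¹ * (γ 1 * γ 2 * γ 3) * g → ¬ True) :=
  g.transfer e nj_zn18_ev

theorem nj_zn {G : Type*} [Group G] {γ : ℕ → G} {k : ℕ} (hk : k = 17 ∨ k = 18) (g : Gf nj γ k []) :
    (∀ g ∈ genW γ (nj.ws k), g * (γ 1 * γ 2 * γ 3) = γ 11 * (γ 1 * γ 2 * γ 3) * g → ¬ True) ∧ (∀ g ∈ genW γ (nj.ws k), g * (γ 1 * γ 2 * γ 3) = (γ 11)⁻¹ * (γ 1 * γ 2 * γ 3) * g → ¬ True) := by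
  rcases hk with rfl | rfl
  exacts [nj_zn17 g, nj_zn18 g]

/-- a formula -/
def nj_zb_f : Fm := .all 17 40 [(.mul (.mul (.l 1) (.l 2)) (.l 3), .mul (.l 1) (.inv (.l 2)))] (.not (.tt))

theorem nj_zb_ev : nj.eval nj_zb_f = true := by decide +kernel

theorem nj_zb {G : Type*} [Group G] {γ : ℕ → G} {k : ℕ} {N : List W} (g : Gf nj γ k N)
    (e : tyB nj k N nj_zb_f = true := by decide +kernel) :
    ∀ g ∈ genW γ (nj.ws 17), g * (γ 1 * γ 2 * γ 3) = γ 1 * (γ 2)⁻¹ * g → ¬ True :=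
  g.transfer e nj_zb_ev

/-- a formula -/
def nj_cn5_f : Fm := .all 17 40 [(.l 11, .l 11)] (.or (.mem 28 (.l 40)) (.or (.mem 28 (.mul (.l 40) (.l 11))) (.mem 28 (.mul (.l 40) (.inv (.l 11))))))

theorem nj_cn5_ev : nj.eval nj_cn5_f = true := by decide +kernel

theorem nj_cn5 {G : Type*} [Group G] {γ : ℕ → G} {k : ℕ} {N : List W} (g : Gf nj γ k N)
    (e : tyB nj k N nj_cn5_f = true := by decide +kernel) :
    ∀ g ∈ genW γ (nj.ws 17), g * γ 11 = γ 11 * g → g ∈ genW γ (nj.ws 28) ∨ g * γ 11 ∈ genW γ (nj.ws 28) ∨ g * (γ 11)⁻¹ ∈ genW γ (nj.ws 28) :=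
  g.transfer e nj_cn5_ev

/-- a formula -/
def nj_ct_f : Fm := .all 17 40 [(.l 5, .l 5)] (.or (.mem 19 (.l 40)) (.or (.mem 19 (.mul (.l 40) (.l 12))) (.mem 19 (.mul (.l 40) (.inv (.l 12))))))

theorem nj_ct_ev : nj.eval nj_ct_f = true := by decide +kernel

theorem nj_ct {G : Type*} [Group G] {γ : ℕ → G} {k : ℕ} {N : List W} (g : Gf nj γ k N)
    (e : tyB nj k N nj_ct_f = true := by decide +kernel) :
    ∀ g ∈ genW γ (nj.ws 17), g * γ 5 = γ 5 * g → g ∈ genW γ (nj.ws 19) ∨ g * γ 12 ∈ genW γ (nj.ws 19) ∨ g * (γ 12)⁻¹ ∈ genW γ (nj.ws 19) :=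
  g.transfer e nj_ct_ev

/-- a formula -/
def nj_f0_f : Fm := .all 17 40 [(.l 11, .l 11), (.l 3, .l 3)] (.imp (.one (.pow (.l 40) 3)) (.mem 1 (.l 40)))

theorem nj_f0_ev : nj.eval nj_f0_f = true := by decide +kernel

theorem nj_f0 {G : Type*} [Group G] {γ : ℕ → G} {k : ℕ} {N : List W} (g : Gf nj γ k N)
    (e : tyB nj k N nj_f0_f = true := by decide +kernel) :
    ∀ g ∈ genW γ (nj.ws 17), g * γ 11 = γ 11 * g → g * γ 3 = γ 3 * g → g ^ 3 = 1 → g ∈ genW γ (nj.ws 1) :=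
  g.transfer e nj_f0_ev

/-- a formula -/
def nj_cd_f : Fm := .all 17 40 [(.l 7, .l 7)] (.mem 22 (.pow (.l 40) 4))

theorem nj_cd_ev : nj.eval nj_cd_f = true := by decide +kernel

theorem nj_cd {G : Type*} [Group G] {γ : ℕ → G} {k : ℕ} {N : List W} (g : Gf nj γ k N)
    (e : tyB nj k N nj_cd_f = true := by decide +kernel) :
    ∀ g ∈ genW γ (nj.ws 17), g * γ 7 = γ 7 * g → g ^ 4 ∈ genW γ (nj.ws 22) :=
  g.transfer e nj_cd_ev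

/-- a formula -/
def nj_te_f : Fm := .and (.ex 17 40 [(.l 5, .l 14)] (.tt)) (.ex 17 40 [(.l 7, .mul (.l 5) (.l 14))] (.tt))

theorem nj_te_ev : nj.eval nj_te_f = true := by decide +kernel

theorem nj_te {G : Type*} [Group G] {γ : ℕ → G} {k : ℕ} {N : List W} (g : Gf nj γ k N)
    (e : tyB nj k N nj_te_f = true := by decide +kernel) :
    (∃ g ∈ genW γ (nj.ws 17), g * γ 5 = γ 14 * g ∧ True) ∧ (∃ g ∈ genW γ (nj.ws 17), g * γ 7 = γ 5 * γ 14 * g ∧ True) :=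
  g.transfer e nj_te_ev

/-- a formula -/
def nj_E_f : Fm := .all 20 40 [] (.or (.one (.l 40)) (.or (.ex 21 41 [(.mul (.l 11) (.l 3), .l 40)] (.tt)) (.or (.ex 21 41 [(.l 11, .l 40)] (.tt)) (.ex 21 41 [(.mul (.mul (.l 1) (.l 2)) (.l 3), .l 40)] (.tt)))))

theorem nj_E_ev : nj.eval nj_E_f = true := by decide +kernel

theorem nj_E {G : Type*} [Group G] {γ : ℕ → G} {k : ℕ} {N : List W} (g : Gf nj γ k N)
    (e : tyB nj k N nj_E_f = true := by decide +kernel) :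
    ∀ h ∈ genW γ (nj.ws 20), h = 1 ∨ (∃ g ∈ genW γ (nj.ws 21), g * (γ 11 * γ 3) = h * g ∧ True) ∨ (∃ g ∈ genW γ (nj.ws 21), g * γ 11 = h * g ∧ True) ∨ (∃ g ∈ genW γ (nj.ws 21), g * (γ 1 * γ 2 * γ 3) = h * g ∧ True) :=
  g.transfer e nj_E_ev

/-- a formula -/
def nj_bsq_f : Fm := .all 19 40 [] (.mem 20 (.pow (.l 40) 2))

theorem nj_bsq_ev : nj.eval nj_bsq_f = true := by decide +kernel

theorem nj_bsq {G : Type*} [Group G] {γ : ℕ → G} {k : ℕ} {N : List W} (g : Gf nj γ k N)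
    (e : tyB nj k N nj_bsq_f = true := by decide +kernel) :
    ∀ g ∈ genW γ (nj.ws 19), g ^ 2 ∈ genW γ (nj.ws 20) :=
  g.transfer e nj_bsq_ev

/-- a formula -/
def nj_res_f : Fm := .all 19 40 [(.mul (.l 11) (.l 3), .mul (.l 11) (.l 3))] (.all 20 41 [] (.mem 23 (.mul (.l 41) (.mul (.mul (.l 40) (.inv (.l 41))) (.inv (.l 40))))))

theorem nj_res_ev : nj.eval nj_res_f = true := by decide +kernel

theorem nj_res {G : Type*} [Group G] {γ : ℕ → G} {k : ℕ} {N : List W} (g : Gf nj γ k N)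
    (e : tyB nj k N nj_res_f = true := by decide +kernel) :
    ∀ g ∈ genW γ (nj.ws 19), g * (γ 11 * γ 3) = γ 11 * γ 3 * g → ∀ h ∈ genW γ (nj.ws 20), h * (g * h⁻¹ * g⁻¹) ∈ genW γ (nj.ws 23) :=
  g.transfer e nj_res_ev

/-- a formula -/
def nj_cF_f : Fm := .all 19 40 [(.mul (.l 11) (.l 3), .mul (.l 11) (.l 3)), (.mul (.l 11) (.inv (.l 3)), .mul (.l 11) (.inv (.l 3))), (.l 16, .l 16)] (.or (.mem 20 (.l 40)) (.mem 20 (.mul (.l 40) (.l 5))))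

theorem nj_cF_ev : nj.eval nj_cF_f = true := by decide +kernel

theorem nj_cF {G : Type*} [Group G] {γ : ℕ → G} {k : ℕ} {N : List W} (g : Gf nj γ k N)
    (e : tyB nj k N nj_cF_f = true := by decide +kernel) :
    ∀ g ∈ genW γ (nj.ws 19), g * (γ 11 * γ 3) = γ 11 * γ 3 * g → g * (γ 11 * (γ 3)⁻¹) = γ 11 * (γ 3)⁻¹ * g → g * γ 16 = γ 16 * g → g ∈ genW γ (nj.ws 20) ∨ g * γ 5 ∈ genW γ (nj.ws 20) :=
  g.transfer e nj_cF_ev

/-- a formula -/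
def nj_F1_f : Fm := .all 23 40 [] (.or (.one (.l 40)) (.or (.or (.eq (.mul (.l 11) (.inv (.l 3))) (.l 40)) (.eq (.mul (.l 11) (.inv (.l 3))) (.mul (.l 40) (.l 40)))) (.or (.or (.eq (.l 16) (.l 40)) (.eq (.l 16) (.mul (.l 40) (.l 40)))) (.or (.or (.eq (.mul (.mul (.l 11) (.inv (.l 3))) (.l 16)) (.l 40)) (.eq (.mul (.mul (.l 11) (.inv (.l 3))) (.l 16)) (.mul (.l 40) (.l 40)))) (.or (.eq (.mul (.mul (.l 11) (.inv (.l 3))) (.inv (.l 16))) (.l 40)) (.eq (.mul (.mul (.l 11) (.inv (.l 3))) (.inv (.l 16))) (.mul (.l 40) (.l 40))))))))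

theorem nj_F1_ev : nj.eval nj_F1_f = true := by decide +kernel

theorem nj_F1 {G : Type*} [Group G] {γ : ℕ → G} {k : ℕ} {N : List W} (g : Gf nj γ k N)
    (e : tyB nj k N nj_F1_f = true := by decide +kernel) :
    ∀ h ∈ genW γ (nj.ws 23), h = 1 ∨ (γ 11 * (γ 3)⁻¹ = h ∨ γ 11 * (γ 3)⁻¹ = h * h) ∨ (γ 16 = h ∨ γ 16 = h * h) ∨ (γ 11 * (γ 3)⁻¹ * γ 16 = h ∨ γ 11 * (γ 3)⁻¹ * γ 16 = h * h) ∨ γ 11 * (γ 3)⁻¹ * (γ 16)⁻¹ = h ∨ γ 11 * (γ 3)⁻¹ * (γ 16)⁻¹ = h * h :=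
  g.transfer e nj_F1_ev

/-- a formula -/
def nj_cw_f : Fm := .all 19 40 [(.mul (.l 11) (.l 3), .mul (.l 11) (.l 3))] (.imp (.mem 25 (.mul (.mul (.mul (.mul (.l 11) (.inv (.l 3))) (.l 40)) (.inv (.mul (.l 11) (.inv (.l 3))))) (.inv (.l 40)))) (.imp (.mem 25 (.mul (.mul (.mul (.l 16) (.l 40)) (.inv (.l 16))) (.inv (.l 40)))) (.or (.mem 20 (.l 40)) (.mem 20 (.mul (.l 40) (.l 5))))))

theorem nj_cw_ev : nj.eval nj_cw_f = true := by decide +kernel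

theorem nj_cw {G : Type*} [Group G] {γ : ℕ → G} {k : ℕ} {N : List W} (g : Gf nj γ k N)
    (e : tyB nj k N nj_cw_f = true := by decide +kernel) :
    ∀ g ∈ genW γ (nj.ws 19), g * (γ 11 * γ 3) = γ 11 * γ 3 * g → γ 11 * (γ 3)⁻¹ * g * (γ 11 * (γ 3)⁻¹)⁻¹ * g⁻¹ ∈ genW γ (nj.ws 25) → γ 16 * g * (γ 16)⁻¹ * g⁻¹ ∈ genW γ (nj.ws 25) → g ∈ genW γ (nj.ws 20) ∨ g * γ 5 ∈ genW γ (nj.ws 20) :=
  g.transfer e nj_cw_ev

/-- a formula -/
def nj_i1_f : Fm := .all 22 40 [] (.imp (.mem 24 (.l 40)) (.mem 25 (.l 40)))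

theorem nj_i1_ev : nj.eval nj_i1_f = true := by decide +kernel

theorem nj_i1 {G : Type*} [Group G] {γ : ℕ → G} {k : ℕ} {N : List W} (g : Gf nj γ k N)
    (e : tyB nj k N nj_i1_f = true := by decide +kernel) :
    ∀ h ∈ genW γ (nj.ws 22), h ∈ genW γ (nj.ws 24) → h ∈ genW γ (nj.ws 25) :=
  g.transfer e nj_i1_ev

/-- a formula -/
def nj_zp_f : Fm := .and (.all 18 40 [(.mul (.mul (.l 1) (.l 2)) (.l 3), .mul (.mul (.l 1) (.inv (.l 3))) (.mul (.mul (.l 1) (.l 2)) (.l 3)))] (.not (.tt))) (.all 18 40 [(.mul (.mul (.l 1) (.l 2)) (.l 3), .mul (.inv (.mul (.l 1) (.inv (.l 3)))) (.mul (.mul (.l 1) (.l 2)) (.l 3)))] (.not (.tt)))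

theorem nj_zp_ev : nj.eval nj_zp_f = true := by decide +kernel

theorem nj_zp {G : Type*} [Group G] {γ : ℕ → G} {k : ℕ} {N : List W} (g : Gf nj γ k N)
    (e : tyB nj k N nj_zp_f = true := by decide +kernel) :
    (∀ g ∈ genW γ (nj.ws 18), g * (γ 1 * γ 2 * γ 3) = γ 1 * (γ 3)⁻¹ * (γ 1 * γ 2 * γ 3) * g → ¬ True) ∧ (∀ g ∈ genW γ (nj.ws 18), g * (γ 1 * γ 2 * γ 3) = (γ 1 * (γ 3)⁻¹)⁻¹ * (γ 1 * γ 2 * γ 3) * g → ¬ True) :=
  g.transfer e nj_zp_ev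

/-- a formula -/
def nj_cn6_f : Fm := .all 18 40 [(.l 11, .l 11)] (.or (.mem 29 (.l 40)) (.or (.mem 29 (.mul (.l 40) (.l 11))) (.mem 29 (.mul (.l 40) (.inv (.l 11))))))

theorem nj_cn6_ev : nj.eval nj_cn6_f = true := by decide +kernel

theorem nj_cn6 {G : Type*} [Group G] {γ : ℕ → G} {k : ℕ} {N : List W} (g : Gf nj γ k N)
    (e : tyB nj k N nj_cn6_f = true := by decide +kernel) :
    ∀ g ∈ genW γ (nj.ws 18), g * γ 11 = γ 11 * g → g ∈ genW γ (nj.ws 29) ∨ g * γ 11 ∈ genW γ (nj.ws 29) ∨ g * (γ 11)⁻¹ ∈ genW γ (nj.ws 29) :=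
  g.transfer e nj_cn6_ev

/-- a formula -/
def nj_cr6_f : Fm := .all 18 40 [(.l 13, .l 13)] (.or (.mem 30 (.l 40)) (.mem 30 (.mul (.l 40) (.l 13))))

theorem nj_cr6_ev : nj.eval nj_cr6_f = true := by decide +kernel

theorem nj_cr6 {G : Type*} [Group G] {γ : ℕ → G} {k : ℕ} {N : List W} (g : Gf nj γ k N)
    (e : tyB nj k N nj_cr6_f = true := by decide +kernel) :
    ∀ g ∈ genW γ (nj.ws 18), g * γ 13 = γ 13 * g → g ∈ genW γ (nj.ws 30) ∨ g * γ 13 ∈ genW γ (nj.ws 30) :=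
  g.transfer e nj_cr6_ev

/-- a formula -/
def nj_f2_f : Fm := .all 18 40 [(.l 16, .l 16), (.l 3, .l 3)] (.imp (.one (.pow (.l 40) 3)) (.mem 1 (.l 40)))

theorem nj_f2_ev : nj.eval nj_f2_f = true := by decide +kernel

theorem nj_f2 {G : Type*} [Group G] {γ : ℕ → G} {k : ℕ} {N : List W} (g : Gf nj γ k N)
    (e : tyB nj k N nj_f2_f = true := by decide +kernel) :
    ∀ g ∈ genW γ (nj.ws 18), g * γ 16 = γ 16 * g → g * γ 3 = γ 3 * g → g ^ 3 = 1 → g ∈ genW γ (nj.ws 1) :=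
  g.transfer e nj_f2_ev

/-- a formula -/
def nj_ctr_f : Fm := .all 18 40 [(.mul (.l 5) (.l 13), .mul (.l 5) (.l 13))] (.mem 26 (.pow (.l 40) 4))

theorem nj_ctr_ev : nj.eval nj_ctr_f = true := by decide +kernel

theorem nj_ctr {G : Type*} [Group G] {γ : ℕ → G} {k : ℕ} {N : List W} (g : Gf nj γ k N)
    (e : tyB nj k N nj_ctr_f = true := by decide +kernel) :
    ∀ g ∈ genW γ (nj.ws 18), g * (γ 5 * γ 13) = γ 5 * γ 13 * g → g ^ 4 ∈ genW γ (nj.ws 26) :=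
  g.transfer e nj_ctr_ev

/-- a formula -/
def nj_F3_f : Fm := .all 31 40 [] (.or (.one (.l 40)) (.or (.mem 6 (.l 40)) (.ex 16 41 [(.mul (.l 1) (.inv (.l 3)), .l 40)] (.tt))))

theorem nj_F3_ev : nj.eval nj_F3_f = true := by decide +kernel

theorem nj_F3 {G : Type*} [Group G] {γ : ℕ → G} {k : ℕ} {N : List W} (g : Gf nj γ k N)
    (e : tyB nj k N nj_F3_f = true := by decide +kernel) :
    ∀ h ∈ genW γ (nj.ws 31), h = 1 ∨ h ∈ genW γ (nj.ws 6) ∨ (∃ g ∈ genW γ (nj.ws 16), g * (γ 1 * (γ 3)⁻¹) = h * g ∧ True) :=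
  g.transfer e nj_F3_ev

/-- a formula -/
def nj_wp_f : Fm := .ex 16 40 [(.mul (.l 1) (.inv (.l 3)), .l 16)] (.tt)

theorem nj_wp_ev : nj.eval nj_wp_f = true := by decide +kernel

theorem nj_wp {G : Type*} [Group G] {γ : ℕ → G} {k : ℕ} {N : List W} (g : Gf nj γ k N)
    (e : tyB nj k N nj_wp_f = true := by decide +kernel) :
    ∃ g ∈ genW γ (nj.ws 16), g * (γ 1 * (γ 3)⁻¹) = γ 16 * g ∧ True :=
  g.transfer e nj_wp_ev

/-- a formula -/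
def nj_cI_f : Fm := .all 18 40 [(.l 1, .l 1), (.l 2, .l 2), (.l 3, .l 3), (.l 13, .l 13)] (.and (.one (.pow (.mul (.l 40) (.l 40)) 3)) (.imp (.one (.mul (.l 40) (.l 40))) (.or (.one (.l 40)) (.eq (.l 40) (.l 13)))))

theorem nj_cI_ev : nj.eval nj_cI_f = true := by decide +kernel

theorem nj_cI {G : Type*} [Group G] {γ : ℕ → G} {k : ℕ} {N : List W} (g : Gf nj γ k N)
    (e : tyB nj k N nj_cI_f = true := by decide +kernel) :
    ∀ g ∈ genW γ (nj.ws 18), g * γ 1 = γ 1 * g → g * γ 2 = γ 2 * g → g * γ 3 = γ 3 * g → g * γ 13 = γ 13 * g → (g * g) ^ 3 = 1 ∧ (g * g = 1 → g = 1 ∨ g = γ 13) :=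
  g.transfer e nj_cI_ev

end Cfsg.Lib.As8
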