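import Cfsg.Agent.Lib.As8.MJ

/-! More facts about `3⁴ : W(F₄)` (helper7). -/

set_option autoImplicit false
set_option maxRecDepth 1000000
set_option maxHeartbeats 0

namespace Cfsg.Lib.As8

open Cfsg.Lib.Calc Cfsg.Lib.Grp Cfsg.Lib.T2 Cfsg.Lib.T3

/-- a formula -/
def nj_ctn_f : Fm := .all 17 40 [(.l 5, .l 5), (.l 11, .l 11)] (.mem 19 (.l 40))

theorem nj_ctn_ev : nj.eval nj_ctn_f = true := by decide +kernel

theorem nj_ctn {G : Type*} [Group G] {γ : ℕ → G} {k : ℕ} {N : List W} (g : Gf nj γ k N)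
    (e : tyB nj k N nj_ctn_f = true := by decide +kernel) :
    ∀ g ∈ genW γ (nj.ws 17), g * γ 5 = γ 5 * g → g * γ 11 = γ 11 * g → g ∈ genW γ (nj.ws 19) :=
  g.transfer e nj_ctn_ev

/-- a formula -/
def nj_ce_f : Fm := .all 19 40 [(.l 14, .l 14)] (.mem 23 (.pow (.l 40) 4))

theorem nj_ce_ev : nj.eval nj_ce_f = true := by decide +kernel

theorem nj_ce {G : Type*} [Group G] {γ : ℕ → G} {k : ℕ} {N : List W} (g : Gf nj γ k N)
    (e : tyB nj k N nj_ce_f = true := by decide +kernel) :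
    ∀ g ∈ genW γ (nj.ws 19), g * γ 14 = γ 14 * g → g ^ 4 ∈ genW γ (nj.ws 23) :=
  g.transfer e nj_ce_ev

end Cfsg.Lib.As8
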